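import Mathlib

/-!
Blocks with a known number of solutions of `x ^ d = 1`, and cyclic extensions of abelian groups
by automorphisms without fixed points.
-/

set_option autoImplicit false

namespace Cfsg.Agent.OrderType

/-- A finite group of exponent dividing `e` with known numbers of solutions of `x ^ d = 1`
for `d ∣ e`. -/
structure Blk (e : ℕ) where
  G : Type
  [grp : Group G]
  [fin : Finite G]
  N : ℕ → ℕ
  hN : ∀ d, d ∣ e → Nat.card {g : G // g ^ d = 1} = N d
  hexp : ∀ g : G, g ^ e = 1

attribute [instance] Blk.grp Blk.fin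

variable {e : ℕ}

/-- The trivial block. -/
noncomputable def Blk.one (e : ℕ) : Blk e where
  G := PUnit
  N := fun _ => 1
  hN := fun d _ => by simp
  hexp := fun _ => Subsingleton.elim _ _

/-- Product of blocks. -/
noncomputable def Blk.prod (A B : Blk e) : Blk e where
  G := A.G × B.G
  N := fun d => A.N d * B.N d
  hN := fun d hd => by
    rw [← A.hN d hd, ← B.hN d hd, ← Nat.card_prod]
    exact Nat.card_congr
      { toFun := fun g => (⟨g.1.1, congrArg Prod.fst g.2⟩, ⟨g.1.2, congrArg Prod.snd g.2⟩)
        invFun := fun g => ⟨(g.1.1, g.2.1), Prod.ext g.1.2 g.2.2⟩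
        left_inv := fun g => rfl
        right_inv := fun g => rfl }
  hexp := fun g => Prod.ext (A.hexp g.1) (B.hexp g.2)

/-- Powers of a block. -/
noncomputable def Blk.pow (A : Blk e) (n : ℕ) : Blk e where
  G := Fin n → A.G
  N := fun d => A.N d ^ n
  hN := fun d hd => by
    rw [← A.hN d hd, show Nat.card {g : A.G // g ^ d = 1} ^ n =
      Nat.card (Fin n → {g : A.G // g ^ d = 1}) by rw [Nat.card_fun, Nat.card_fin]]
    exact Nat.card_congr
      { toFun := fun g i => ⟨g.1 i, congrFun g.2 i⟩
        invFun := fun g => ⟨fun i => (g i).1, funext fun i => (g i).2⟩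
        left_inv := fun g => rfl
        right_inv := fun g => rfl }
  hexp := fun g => funext fun i => A.hexp (g i)

/-- Product of a list of powers. -/
noncomputable def Blk.list (e : ℕ) : List (Blk e × ℕ) → Blk e
  | [] => Blk.one e
  | (A, n) :: l => (A.pow n).prod (Blk.list e l)

theorem Blk.list_N (l : List (Blk e × ℕ)) (d : ℕ) :
    (Blk.list e l).N d = (l.map fun An => An.1.N d ^ An.2).prod := by
  induction l with
  | nil => rfl
  | cons a l ih =>
    obtain ⟨A, n⟩ := a
    simp [Blk.list, Blk.prod, Blk.pow, ih]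

/-- A group isomorphic to a product of solvable ones is solvable. -/
theorem Blk.list_solvable (l : List (Blk e × ℕ)) (h : ∀ An ∈ l, Group.IsSolvable An.1.G) :
    Group.IsSolvable (Blk.list e l).G := by
  induction l with
  | nil =>
    haveI : Subsingleton (Blk.one e).G := inferInstanceAs (Subsingleton PUnit)
    exact inferInstanceAs (Group.IsSolvable PUnit)
  | cons a l ih =>
    obtain ⟨A, n⟩ := a
    haveI hA : Group.IsSolvable A.G := h (A, n) (List.mem_cons_self ..)
    haveI : Group.IsSolvable (Blk.list e l).G := ih fun x hx => h x (List.mem_cons_of_mem _ hx)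
    have hP : ∀ k : ℕ, Group.IsSolvable (Fin k → A.G) := by
      intro k
      induction k with
      | zero => exact inferInstance
      | succ k ih2 =>
        haveI := ih2
        let f : A.G × (Fin k → A.G) →* (Fin (k + 1) → A.G) :=
          { toFun := fun x => Fin.cons x.1 x.2
            map_one' := by
              funext i
              refine Fin.cases ?_ (fun j => ?_) i <;> simp
            map_mul' := fun x y => by
              funext i
              refine Fin.cases ?_ (fun j => ?_) i <;> simp }
        exact Group.isSolvable_of_surjective (f := f) fun g =>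
          ⟨(g 0, Fin.tail g), Fin.cons_self_tail g⟩
    haveI := hP n
    exact inferInstanceAs (Group.IsSolvable ((Fin n → A.G) × (Blk.list e l).G))

/-! ### Cyclic extensions of abelian groups -/

/-- An abelian group with an automorphism of order dividing `m`, with known kernels of the
norm maps. -/
structure Act (m : ℕ) where
  V : Type
  [acg : AddCommGroup V]
  [fin : Finite V]
  a : V → V
  map_add : ∀ x y, a (x + y) = a x + a y
  a_pow : ∀ x, a^[m] x = x
  k : ℕ → ℕ → ℕ
  hk : ∀ d h : ℕ, m ∣ h * d →
    Nat.card {v : V // ∑ i ∈ Finset.range d, a^[h * i] v = 0} = k d h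

attribute [instance] Act.acg Act.fin

variable {m : ℕ}

/-- Direct sum. -/
noncomputable def Act.prod (A B : Act m) : Act m where
  V := A.V × B.V
  a := Prod.map A.a B.a
  map_add := fun x y => Prod.ext (A.map_add _ _) (B.map_add _ _)
  a_pow := fun x => by
    rw [Prod.map_iterate]
    exact Prod.ext (A.a_pow _) (B.a_pow _)
  k := fun d h => A.k d h * B.k d h
  hk := fun d h hd => by
    rw [← A.hk d h hd, ← B.hk d h hd, ← Nat.card_prod]
    have key : ∀ v : A.V × B.V, ∑ i ∈ Finset.range d, (Prod.map A.a B.a)^[h * i] v =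
        (∑ i ∈ Finset.range d, A.a^[h * i] v.1, ∑ i ∈ Finset.range d, B.a^[h * i] v.2) := by
      intro v
      apply Prod.ext
      · rw [Prod.fst_sum]; simp [Prod.map_iterate]
      · rw [Prod.snd_sum]; simp [Prod.map_iterate]
    exact Nat.card_congr
      { toFun := fun g => (⟨g.1.1, congrArg Prod.fst ((key g.1).symm.trans g.2)⟩,
          ⟨g.1.2, congrArg Prod.snd ((key g.1).symm.trans g.2)⟩)
        invFun := fun g => ⟨(g.1.1, g.2.1), (key _).trans (Prod.ext g.1.2 g.2.2)⟩
        left_inv := fun g => rfl
        right_inv := fun g => rfl }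

/-- An elementary abelian `p`-group of order `q` with an automorphism of order dividing `j ∣ m`
whose nontrivial powers fix only `0`. -/
noncomputable def Act.base (V : Type) [AddCommGroup V] [Finite V] (m p j q : ℕ) (hp : p.Prime)
    (hpV : ∀ v : V, p • v = 0) (hq : Nat.card V = q) (a : V → V)
    (map_add : ∀ x y, a (x + y) = a x + a y) (hj : j ∣ m) (haj : ∀ v, a^[j] v = v)
    (hj0' : j ≠ 0)
    (hfix : ∀ i : ℕ, i < j → i ≠ 0 → ∀ v, a^[i] v = v → v = 0) : Act m where
  V := V
  a := a
  map_add := map_add
  a_pow := fun v => by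
    obtain ⟨c, rfl⟩ := hj
    rw [Function.iterate_mul]
    exact Function.iterate_fixed (haj v) c
  k := fun d h => if p ∣ d ∨ ¬ j ∣ h then q else 1
  hk := fun d h hd => by
    let f : V →+ V := AddMonoidHom.mk' a map_add
    have hfa : ∀ i v, (f^[i]) v = a^[i] v := fun i v => rfl
    have hmul : ∀ (c : ℕ) v, a^[j * c] v = v := fun c v => by
      rw [Function.iterate_mul]
      exact Function.iterate_fixed (haj v) c
    have hmod : ∀ i v, a^[i] v = a^[i % j] v := fun i v => by
      conv_lhs => rw [← Nat.mod_add_div i j, Function.iterate_add_apply, hmul]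
    by_cases hjh : j ∣ h
    · have hsum : ∀ v, ∑ i ∈ Finset.range d, a^[h * i] v = d • v := fun v => by
        obtain ⟨c, rfl⟩ := hjh
        simp [mul_assoc, hmul]
      simp only [hsum, hjh, not_true_eq_false, or_false]
      by_cases hpd : p ∣ d
      · rw [if_pos hpd, ← hq]
        refine Nat.card_congr (Equiv.subtypeUnivEquiv fun v => ?_)
        obtain ⟨c, rfl⟩ := hpd
        rw [mul_comm, mul_nsmul', hpV, nsmul_zero]
      · rw [if_neg hpd, Nat.card_eq_one_iff_exists]
        refine ⟨⟨0, nsmul_zero _⟩, fun v => Subtype.ext ?_⟩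
        have h1 : addOrderOf (v : V) ∣ p := addOrderOf_dvd_of_nsmul_eq_zero (hpV _)
        have h2 : addOrderOf (v : V) ∣ d := addOrderOf_dvd_of_nsmul_eq_zero v.2
        exact AddMonoid.addOrderOf_eq_one_iff.mp
          (Nat.eq_one_of_dvd_coprimes (hp.coprime_iff_not_dvd.mpr hpd) h1 h2)
    · rw [if_pos (Or.inr hjh), ← hq]
      refine Nat.card_congr (Equiv.subtypeUnivEquiv fun v => ?_)
      have hj0 : 0 < j := Nat.pos_of_ne_zero hj0'
      apply hfix (h % j) (Nat.mod_lt _ hj0) (fun e => hjh (Nat.dvd_of_mod_eq_zero e))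
      set w := ∑ i ∈ Finset.range d, a^[h * i] v with hw
      have e1 : a^[h % j] w = ∑ i ∈ Finset.range d, a^[h * (i + 1)] v := by
        rw [← hfa, hw, map_sum_iterate]
        refine Finset.sum_congr rfl fun i _ => ?_
        rw [hfa, ← hmod, ← Function.iterate_add_apply, mul_add_one, add_comm]
      have e2 : a^[h * d] v = v := by
        obtain ⟨c, hc⟩ := hj.trans hd
        rw [hc, hmul]
      rw [e1, hw]
      have := Finset.sum_range_succ' (fun i => a^[h * i] v) d
      rw [Finset.sum_range_succ] at this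
      simp only [e2, mul_zero, Function.iterate_zero, id_eq] at this
      exact (add_right_cancel this).symm
where
  map_sum_iterate {V : Type} [AddCommGroup V] {f : V →+ V} {n : ℕ} {ι : Type} {s : Finset ι}
      {g : ι → V} : f^[n] (∑ i ∈ s, g i) = ∑ i ∈ s, f^[n] (g i) := by
    induction n with
    | zero => rfl
    | succ n ih => simp [Function.iterate_succ_apply', ih, map_sum]

variable (A : Act m)

/-- The automorphism as a multiplicative automorphism. -/
noncomputable def Act.aut [NeZero m] : MulAut (Multiplicative A.V) :=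
  AddEquiv.toMultiplicative
    { toFun := A.a
      invFun := A.a^[m - 1]
      left_inv := fun x => by
        rw [← Function.iterate_succ_apply, Nat.succ_eq_add_one,
          Nat.sub_add_cancel (Nat.pos_of_ne_zero (NeZero.ne m))]
        exact A.a_pow x
      right_inv := fun x => by
        rw [← Function.iterate_succ_apply' A.a (m - 1) x, Nat.succ_eq_add_one,
          Nat.sub_add_cancel (Nat.pos_of_ne_zero (NeZero.ne m))]
        exact A.a_pow x
      map_add' := A.map_add }

theorem Act.aut_pow [NeZero m] (n : ℕ) (x : Multiplicative A.V) :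
    (A.aut ^ n) x = Multiplicative.ofAdd (A.a^[n] x.toAdd) := by
  induction n generalizing x with
  | zero => rfl
  | succ n ih =>
    rw [pow_succ', MulAut.mul_apply, ih, Function.iterate_succ_apply']
    rfl

theorem Act.aut_pow_m [NeZero m] : A.aut ^ m = 1 :=
  MulEquiv.ext fun x => by
    rw [A.aut_pow, A.a_pow]
    rfl

/-- The action homomorphism. -/
noncomputable def Act.hom [NeZero m] : Multiplicative (ZMod m) →* MulAut (Multiplicative A.V) where
  toFun h := A.aut ^ h.toAdd.val
  map_one' := by simp
  map_mul' x y := by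
    rw [← pow_add, toAdd_mul, ZMod.val_add, ← pow_eq_pow_mod _ A.aut_pow_m]

/-- The semidirect product. -/
abbrev Act.Ext [NeZero m] : Type := Multiplicative A.V ⋊[A.hom] Multiplicative (ZMod m)

instance [NeZero m] : Finite A.Ext := Finite.of_equiv _ SemidirectProduct.equivProd.symm

theorem Act.ext_pow [NeZero m] (g : A.Ext) (d : ℕ) :
    (g ^ d).right = g.right ^ d ∧
      (g ^ d).left.toAdd =
        ∑ i ∈ Finset.range d, A.a^[g.right.toAdd.val * i] g.left.toAdd := by
  induction d with
  | zero => simp
  | succ d ih =>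
    refine ⟨by rw [pow_succ, SemidirectProduct.mul_right, ih.1, pow_succ], ?_⟩
    rw [pow_succ, SemidirectProduct.mul_left, toAdd_mul, ih.2, Finset.sum_range_succ, ih.1,
      map_pow]
    congr 1
    change (((A.aut ^ g.right.toAdd.val) ^ d) g.left).toAdd = _
    rw [← pow_mul, A.aut_pow]
    rfl

theorem Act.ext_card [NeZero m] (d : ℕ) :
    Nat.card {g : A.Ext // g ^ d = 1} =
      ∑ h ∈ Finset.range m, if m ∣ h * d then A.k d h else 0 := by
  classical
  haveI : Fintype A.V := Fintype.ofFinite _
  let S : Multiplicative (ZMod m) → Type := fun h =>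
    {v : A.V // m ∣ h.toAdd.val * d ∧ ∑ i ∈ Finset.range d, A.a^[h.toAdd.val * i] v = 0}
  have hiff : ∀ g : A.Ext, g ^ d = 1 ↔ m ∣ g.right.toAdd.val * d ∧
      ∑ i ∈ Finset.range d, A.a^[g.right.toAdd.val * i] g.left.toAdd = 0 := by
    intro g
    obtain ⟨hr, hl⟩ := A.ext_pow g d
    rw [SemidirectProduct.ext_iff, hr, SemidirectProduct.one_left, SemidirectProduct.one_right,
      ← hl, and_comm]
    refine and_congr ?_ ⟨fun h => by rw [h]; rfl, fun h => Multiplicative.toAdd.injective h⟩
    rw [← ZMod.natCast_eq_zero_iff, Nat.cast_mul, ZMod.natCast_zmod_val]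
    refine ⟨fun h => ?_, fun h => Multiplicative.toAdd.injective ?_⟩
    · have h2 := congrArg Multiplicative.toAdd h
      rw [toAdd_pow, toAdd_one, nsmul_eq_mul] at h2
      rwa [mul_comm]
    · rw [toAdd_pow, toAdd_one, nsmul_eq_mul, mul_comm]
      exact h
  rw [show Nat.card {g : A.Ext // g ^ d = 1} = Nat.card (Σ h : Multiplicative (ZMod m), S h) from
    Nat.card_congr
      { toFun := fun g => ⟨g.1.right, g.1.left.toAdd, (hiff g.1).mp g.2⟩
        invFun := fun s => ⟨⟨Multiplicative.ofAdd s.2.1, s.1⟩, (hiff _).mpr s.2.2⟩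
        left_inv := fun g => rfl
        right_inv := fun s => rfl }]
  haveI : ∀ h, Finite (S h) := fun h => inferInstanceAs (Finite (Subtype _))
  rw [Nat.card_sigma]
  refine Finset.sum_nbij' (fun h => h.toAdd.val) (fun n => Multiplicative.ofAdd (n : ZMod m))
    (fun h _ => Finset.mem_range.mpr (ZMod.val_lt _)) (fun n _ => Finset.mem_univ _)
    (fun h _ => by simp) (fun n hn => ?_) fun h _ => ?_
  · simp [ZMod.val_natCast, Nat.mod_eq_of_lt (Finset.mem_range.mp hn)]
  · change Nat.card {v : A.V // _ ∧ _} = _
    by_cases hm : m ∣ h.toAdd.val * d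
    · rw [if_pos hm, ← A.hk d _ hm]
      exact Nat.card_congr (Equiv.subtypeEquivRight fun v => and_iff_right hm)
    · rw [if_neg hm, Nat.card_eq_zero]
      exact Or.inl ⟨fun v => hm v.2.1⟩

theorem Act.ext_solvable [NeZero m] : Group.IsSolvable A.Ext :=
  Group.isSolvable_of_ker_le_range (SemidirectProduct.inl (φ := A.hom)) SemidirectProduct.rightHom
    (le_of_eq SemidirectProduct.range_inl_eq_ker_rightHom.symm)

theorem Act.ext_exp [NeZero m] {e : ℕ}
    (h : ∑ h ∈ Finset.range m, (if m ∣ h * e then A.k e h else 0) = m * Nat.card A.V) :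
    ∀ g : A.Ext, g ^ e = 1 := by
  intro g
  rw [← A.ext_card] at h
  have hc : Nat.card A.Ext = m * Nat.card A.V := by
    rw [Nat.card_congr SemidirectProduct.equivProd, Nat.card_prod, Nat.card_congr Multiplicative.toAdd,
      Nat.card_congr Multiplicative.toAdd, Nat.card_zmod, mul_comm]
  have hbij := (Nat.bijective_iff_injective_and_card
    (Subtype.val : {g : A.Ext // g ^ e = 1} → A.Ext)).mpr ⟨Subtype.val_injective, h.trans hc.symm⟩
  obtain ⟨⟨x, hx⟩, rfl⟩ := hbij.2 g
  exact hx

/-- The block of an extension. -/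
noncomputable def Act.blk [NeZero m] {e : ℕ} (q : ℕ) (hq : Nat.card A.V = q)
    (h : ∑ h ∈ Finset.range m, (if m ∣ h * e then A.k e h else 0) = m * q) : Blk e where
  G := A.Ext
  N := fun d => ∑ h ∈ Finset.range m, if m ∣ h * d then A.k d h else 0
  hN := fun d _ => A.ext_card d
  hexp := A.ext_exp (hq.symm ▸ h)

/-- Two blocks with the same counts have the same order type. -/
theorem Blk.order_type (he : 0 < e) (A B : Blk e) (h : ∀ d ∈ e.divisors, A.N d = B.N d) (n : ℕ) :
    Nat.card {g : A.G // orderOf g = n} = Nat.card {g : B.G // orderOf g = n} := by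
  classical
  haveI : Fintype A.G := Fintype.ofFinite _
  haveI : Fintype B.G := Fintype.ofFinite _
  have hA : ∀ d, d ∣ e → ∑ m ∈ d.divisors, Nat.card {g : A.G // orderOf g = m} = A.N d := by
    intro d hd
    have hd0 : d ≠ 0 := ne_zero_of_dvd_ne_zero he.ne' hd
    rw [← A.hN d hd, Nat.card_eq_fintype_card (α := {g : A.G // g ^ d = 1}), Fintype.card_subtype,
      Finset.card_eq_sum_card_fiberwise (f := orderOf) (t := d.divisors) fun g hg => by
        simp only [Finset.coe_filter, Finset.mem_univ, true_and, Set.mem_setOf_eq] at hg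
        exact Finset.mem_coe.mpr (Nat.mem_divisors.mpr ⟨orderOf_dvd_of_pow_eq_one hg, hd0⟩)]
    refine Finset.sum_congr rfl fun m hm => ?_
    rw [Nat.card_eq_fintype_card, Fintype.card_subtype]
    congr 1
    ext g
    simp only [Finset.mem_filter, Finset.mem_univ, true_and]
    refine ⟨fun hg => ⟨orderOf_dvd_iff_pow_eq_one.mp (hg ▸ (Nat.mem_divisors.mp hm).1), hg⟩, And.right⟩
  have hB : ∀ d, d ∣ e → ∑ m ∈ d.divisors, Nat.card {g : B.G // orderOf g = m} = B.N d := by
    intro d hd
    have hd0 : d ≠ 0 := ne_zero_of_dvd_ne_zero he.ne' hd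
    rw [← B.hN d hd, Nat.card_eq_fintype_card (α := {g : B.G // g ^ d = 1}), Fintype.card_subtype,
      Finset.card_eq_sum_card_fiberwise (f := orderOf) (t := d.divisors) fun g hg => by
        simp only [Finset.coe_filter, Finset.mem_univ, true_and, Set.mem_setOf_eq] at hg
        exact Finset.mem_coe.mpr (Nat.mem_divisors.mpr ⟨orderOf_dvd_of_pow_eq_one hg, hd0⟩)]
    refine Finset.sum_congr rfl fun m hm => ?_
    rw [Nat.card_eq_fintype_card, Fintype.card_subtype]
    congr 1
    ext g
    simp only [Finset.mem_filter, Finset.mem_univ, true_and]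
    refine ⟨fun hg => ⟨orderOf_dvd_iff_pow_eq_one.mp (hg ▸ (Nat.mem_divisors.mp hm).1), hg⟩, And.right⟩
  induction n using Nat.strong_induction_on with
  | _ n ih =>
    by_cases hn : n ∣ e
    · have hn0 : n ≠ 0 := ne_zero_of_dvd_ne_zero he.ne' hn
      have h1 := hA n hn
      have h2 := hB n hn
      rw [h n (Nat.mem_divisors.mpr ⟨hn, he.ne'⟩), ← h2] at h1
      rw [← Nat.cons_self_properDivisors hn0, Finset.sum_cons, Finset.sum_cons,
        Finset.sum_congr rfl fun m hm => ih m (Nat.mem_properDivisors.mp hm).2] at h1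
      exact Nat.add_right_cancel h1
    · rw [Nat.card_eq_zero.mpr (Or.inl ⟨fun g => hn ?_⟩),
        Nat.card_eq_zero.mpr (Or.inl ⟨fun g => hn ?_⟩)]
      · exact g.2 ▸ orderOf_dvd_of_pow_eq_one (B.hexp g.1)
      · exact g.2 ▸ orderOf_dvd_of_pow_eq_one (A.hexp g.1)

end Cfsg.Agent.OrderType
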