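import Cfsg.Agent.H7.OrderType.Table

/-! The semilinear affine group of order 168. -/

set_option autoImplicit false

namespace Cfsg.Agent.OrderType

/-- A cyclic action by an automorphism with `σ ^ n = 1`. -/
def cycHom {A : Type} [Monoid A] (n : ℕ) [NeZero n] (σ : A) (h : σ ^ n = 1) :
    Multiplicative (ZMod n) →* A where
  toFun x := σ ^ x.toAdd.val
  map_one' := by simp
  map_mul' x y := by rw [← pow_add, toAdd_mul, ZMod.val_add, ← pow_eq_pow_mod _ h]

/-- The elementary abelian group of order 8. -/
abbrev V8 : Type := Multiplicative (ZMod 2 × ZMod 2 × ZMod 2)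

/-- Multiplication by a generator of the field of order 8, with `x ^ 3 = x + 1`. -/
def mulX : MulAut V8 where
  toFun v := Multiplicative.ofAdd (v.toAdd.2.2, v.toAdd.1 + v.toAdd.2.2, v.toAdd.2.1)
  invFun v := Multiplicative.ofAdd (v.toAdd.2.1 + v.toAdd.1, v.toAdd.2.2, v.toAdd.1)
  left_inv := by unfold Function.LeftInverse; decide +kernel
  right_inv := by unfold Function.RightInverse Function.LeftInverse; decide +kernel
  map_mul' := by decide +kernel

/-- The Frobenius of the field of order 8. -/
def frob : MulAut V8 where
  toFun v := Multiplicative.ofAdd (v.toAdd.1, v.toAdd.2.2, v.toAdd.2.1 + v.toAdd.2.2)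
  invFun v := Multiplicative.ofAdd (v.toAdd.1, v.toAdd.2.2 + v.toAdd.2.1, v.toAdd.2.1)
  left_inv := by unfold Function.LeftInverse; decide +kernel
  right_inv := by unfold Function.RightInverse Function.LeftInverse; decide +kernel
  map_mul' := by decide +kernel

/-- Doubling on the cyclic group of order 7. -/
def dbl : MulAut (Multiplicative (ZMod 7)) where
  toFun v := Multiplicative.ofAdd (2 * v.toAdd)
  invFun v := Multiplicative.ofAdd (4 * v.toAdd)
  left_inv := by unfold Function.LeftInverse; decide +kernel
  right_inv := by unfold Function.RightInverse Function.LeftInverse; decide +kernel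
  map_mul' := by decide +kernel

/-- The group of order 21. -/
abbrev F21 : Type :=
  Multiplicative (ZMod 7) ⋊[cycHom 3 dbl (MulEquiv.ext (by decide +kernel))]
    Multiplicative (ZMod 3)

/-- The action of `F21` on `V8`. -/
def act21 : F21 →* MulAut V8 :=
  SemidirectProduct.lift (cycHom 7 mulX (MulEquiv.ext (by decide +kernel)))
    (cycHom 3 frob (MulEquiv.ext (by decide +kernel))) (fun k => by
      apply MonoidHom.ext
      intro i
      apply MulEquiv.ext
      revert k i
      decide +kernel)

instance : DecidableEq F21 := fun a b =>
  decidable_of_iff (a.left = b.left ∧ a.right = b.right) SemidirectProduct.ext_iff.symm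

instance : Fintype F21 := Fintype.ofEquiv _ SemidirectProduct.equivProd.symm

/-- The semilinear affine group of order 168. -/
abbrev AGL8 : Type := V8 ⋊[act21] F21

instance : Fintype AGL8 := Fintype.ofEquiv _ SemidirectProduct.equivProd.symm

instance : DecidableEq AGL8 := fun a b =>
  decidable_of_iff (a.left = b.left ∧ a.right = b.right) SemidirectProduct.ext_iff.symm

/-- The block of the semilinear affine group of order 168. -/
noncomputable def blkAGL8 : Blk 84 :=
  tableBlk AGL8 [1, 2, 3, 6, 7] [(1, 1), (2, 7), (3, 56), (6, 56), (7, 48)]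
    (by decide +kernel) (by decide +kernel) (by decide +kernel)

theorem AGL8_solvable : Group.IsSolvable AGL8 := by
  haveI : Group.IsSolvable F21 :=
    Group.isSolvable_of_ker_le_range (SemidirectProduct.inl (N := Multiplicative (ZMod 7)))
      SemidirectProduct.rightHom (le_of_eq SemidirectProduct.range_inl_eq_ker_rightHom.symm)
  exact Group.isSolvable_of_ker_le_range (SemidirectProduct.inl (N := V8))
    SemidirectProduct.rightHom (le_of_eq SemidirectProduct.range_inl_eq_ker_rightHom.symm)

end Cfsg.Agent.OrderType
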