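import Cfsg.Agent.H7.OrderType.Table
import Cfsg.Agent.Classical.SL

/-! The blocks of SL(2,3) and SL(3,2). -/

set_option autoImplicit false

namespace Cfsg.Agent.OrderType

/-- `SL(3,2)`. -/
abbrev L32 : Type := Matrix.SpecialLinearGroup (Fin 3) (ZMod 2)

/-- `SL(2,3)`. -/
abbrev L23 : Type := Matrix.SpecialLinearGroup (Fin 2) (ZMod 3)

/-- The block of `SL(3,2)`. -/
noncomputable def blkL32 : Blk 84 :=
  tableBlk L32 [1, 2, 3, 4, 7] [(1, 1), (2, 21), (3, 56), (4, 42), (7, 48)]
    (by decide +kernel) (by decide +kernel) (by decide +kernel)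

/-- The block of `SL(2,3)`. -/
noncomputable def blkL23 : Blk 84 :=
  tableBlk L23 [1, 2, 3, 4, 6] [(1, 1), (2, 1), (3, 8), (4, 6), (6, 8)]
    (by decide +kernel) (by decide +kernel) (by decide +kernel)

theorem L32_not_solvable : ¬ Group.IsSolvable L32 := by
  intro h
  haveI := h
  have hne : Nontrivial L32 := by
    refine ⟨⟨1, ⟨!![1, 1, 0; 0, 1, 0; 0, 0, 1], ?_⟩, ?_⟩⟩
    · decide +kernel
    · intro e
      have := congrArg (fun A : L32 => (A : Matrix (Fin 3) (Fin 3) (ZMod 2)) 0 1) e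
      simp at this
  exact (Group.IsSolvable.commutator_lt_top_of_nontrivial L32).ne
    (Classical.SL_commutator_eq_top (by simp))

theorem L23_solvable : Group.IsSolvable L23 := by
  let q : L23 := ⟨!![0, -1; 1, 0], by decide +kernel⟩
  let r : L23 := ⟨!![1, 1; 1, -1], by decide +kernel⟩
  let S : Finset L23 := Finset.univ.filter fun g => g ^ 4 = 1
  let Q : Subgroup L23 :=
    { carrier := {g | g ^ 4 = 1}
      one_mem' := one_pow 4
      mul_mem' := by
        intro a b
        have : ∀ a b : L23, a ^ 4 = 1 → b ^ 4 = 1 → (a * b) ^ 4 = 1 := by decide +kernel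
        exact this a b
      inv_mem' := by
        intro a
        have : ∀ a : L23, a ^ 4 = 1 → a⁻¹ ^ 4 = 1 := fun a h => by rw [inv_pow, h, inv_one]
        exact this a }
  haveI : Q.Normal := ⟨fun a ha g => by
    change (g * a * g⁻¹) ^ 4 = 1
    rw [conj_pow, show a ^ 4 = 1 from ha, mul_one, mul_inv_cancel]⟩
  haveI : Fact (Nat.Prime 2) := ⟨Nat.prime_two⟩
  haveI : Fact (Nat.Prime 3) := ⟨Nat.prime_three⟩
  haveI hQ : Group.IsSolvable Q := by
    have hp : IsPGroup 2 Q := fun g => ⟨2, Subtype.ext g.2⟩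
    haveI := hp.isNilpotent
    infer_instance
  haveI hR : Group.IsSolvable (L23 ⧸ Q) := by
    have hp : IsPGroup 3 (L23 ⧸ Q) := by
      intro g
      obtain ⟨x, rfl⟩ := QuotientGroup.mk_surjective g
      refine ⟨1, ?_⟩
      rw [← QuotientGroup.mk_pow, QuotientGroup.eq_one_iff]
      have : ∀ x : L23, (x ^ 3 ^ 1) ^ 4 = 1 := by decide +kernel
      exact this x
    haveI := hp.isNilpotent
    infer_instance
  exact Group.isSolvable_of_ker_le_range Q.subtype (QuotientGroup.mk' Q)
    (by rw [QuotientGroup.ker_mk', Subgroup.range_subtype])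


end Cfsg.Agent.OrderType
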