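import Cfsg.Agent.H7.OrderType.Basic

/-!
Blocks from order tables.
-/

set_option autoImplicit false

namespace Cfsg.Agent.OrderType

/-- The first exponent among a list that kills an element. -/
def firstKill {G : Type} [Monoid G] [DecidableEq G] : List ℕ → G → ℕ
  | [], _ => 0
  | o :: os, g => if g ^ o = 1 then o else firstKill os g

/-- Check that `firstKill` computes the order. -/
theorem orderOf_firstKill {G : Type} [Group G] [DecidableEq G] (os : List ℕ) (g : G)
    (hpos : 0 < firstKill os g) (h1 : g ^ firstKill os g = 1)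
    (h2 : ∀ i < firstKill os g, 0 < i → g ^ i ≠ 1) : orderOf g = firstKill os g :=
  (orderOf_eq_iff hpos).mpr ⟨h1, h2⟩

/-- A block from an order table. -/
noncomputable def tableBlk (G : Type) [Group G] [Fintype G] [DecidableEq G] (os : List ℕ)
    (tbl : List (ℕ × ℕ))
    (hord : ∀ g : G, 0 < firstKill os g ∧ g ^ firstKill os g = 1 ∧
      ∀ i < firstKill os g, 0 < i → g ^ i ≠ 1)
    (hcnt : ∀ d ∈ Nat.divisors 84, (Finset.univ.filter fun g : G => firstKill os g ∣ d).card =
      (tbl.map fun on => if on.1 ∣ d then on.2 else 0).sum)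
    (he : ∀ g : G, firstKill os g ∣ 84) : Blk 84 where
  G := G
  N := fun d => (tbl.map fun on => if on.1 ∣ d then on.2 else 0).sum
  hN := fun d hd => by
    rw [← hcnt d (Nat.mem_divisors.mpr ⟨hd, by norm_num⟩), Nat.card_eq_fintype_card,
      Fintype.card_subtype]
    congr 1
    ext g
    simp only [Finset.mem_filter, Finset.mem_univ, true_and]
    rw [← orderOf_dvd_iff_pow_eq_one,
      orderOf_firstKill os g (hord g).1 (hord g).2.1 (hord g).2.2]
  hexp := fun g => by
    rw [← orderOf_dvd_iff_pow_eq_one,
      orderOf_firstKill os g (hord g).1 (hord g).2.1 (hord g).2.2]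
    exact he g


end Cfsg.Agent.OrderType
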